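import Cfsg.Prelude.Def_CaseTheorems
import Cfsg.Agent.OrdDiv.Main

/-!
# The alternating group of degree 12: 2-rank at least 6, and its order
-/

set_option autoImplicit false

namespace Cfsg.Agent.H285.AltTwelve

open Cfsg Cfsg.Agent.OrdDiv

universe u

/-- the four-group -/
abbrev V : Type := Multiplicative (ZMod 2 × ZMod 2)

instance instDecV : DecidableEq V := inferInstanceAs (DecidableEq (ZMod 2 × ZMod 2))
instance instFinV : Fintype V := inferInstanceAs (Fintype (ZMod 2 × ZMod 2))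

/-- its regular representation -/
def t : V →* Equiv.Perm V := MulAction.toPermHom V V

theorem t_apply (a b : V) : t a b = a * b := rfl

theorem t_inj : Function.Injective t := fun a b h => by
  have := congrArg (fun f : Equiv.Perm V => f 1) h
  simpa [t_apply] using this

theorem sign_t (a : V) : Equiv.Perm.sign (t a) = 1 := by
  revert a
  decide

/-- the representation on 12 points -/
def F : V × V × V →* Equiv.Perm (V ⊕ V ⊕ V) :=
  (Equiv.Perm.sumCongrHom V (V ⊕ V)).comp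
    (MonoidHom.prodMap t ((Equiv.Perm.sumCongrHom V V).comp (MonoidHom.prodMap t t)))

theorem F_apply (a b c : V) : F (a, b, c) = Equiv.Perm.sumCongr (t a) (Equiv.Perm.sumCongr (t b) (t c)) := rfl

theorem sign_F (x : V × V × V) : Equiv.Perm.sign (F x) = 1 := by
  obtain ⟨a, b, c⟩ := x
  rw [F_apply, Equiv.Perm.sign_sumCongr, Equiv.Perm.sign_sumCongr, sign_t, sign_t, sign_t, one_mul, one_mul]

theorem F_inj : Function.Injective F := by
  rintro ⟨a, b, c⟩ ⟨a', b', c'⟩ h
  rw [F_apply, F_apply] at h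
  have h1 : a = a' := by
    have := congrArg (fun f : Equiv.Perm (V ⊕ V ⊕ V) => f (Sum.inl 1)) h
    simpa [t_apply] using this
  have h2 : b = b' := by
    have := congrArg (fun f : Equiv.Perm (V ⊕ V ⊕ V) => f (Sum.inr (Sum.inl 1))) h
    simpa [t_apply] using this
  have h3 : c = c' := by
    have := congrArg (fun f : Equiv.Perm (V ⊕ V ⊕ V) => f (Sum.inr (Sum.inr 1))) h
    simpa [t_apply] using this
  rw [h1, h2, h3]

/-- the points -/
noncomputable def pts : V ⊕ V ⊕ V ≃ Fin 12 := Fintype.equivFinOfCardEq (by decide)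

/-- the embedding -/
noncomputable def E : V × V × V →* ↥(alternatingGroup (Fin 12)) :=
  MonoidHom.codRestrict ((Equiv.permCongrHom pts).toMonoidHom.comp F) (alternatingGroup (Fin 12)) fun x => by
    rw [Equiv.Perm.mem_alternatingGroup]
    change Equiv.Perm.sign (pts.permCongr (F x)) = 1
    rw [Equiv.Perm.sign_permCongr, sign_F]

theorem E_inj : Function.Injective E := by
  intro x y h
  have h1 := congrArg Subtype.val h
  exact F_inj ((Equiv.permCongrHom pts).injective h1)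

theorem sq_V (a : V) : a * a = 1 := by
  revert a
  decide

/-- **The 2-rank of the alternating group of degree 12 is at least 6.** -/
theorem rank : ¬ PRankLE 2 5 ↥(alternatingGroup (Fin 12)) := by
  intro h
  have h1 := h E.range ⟨⟨?_⟩⟩ ?_
  · rw [← Nat.card_congr (MonoidHom.ofInjective E_inj).toEquiv, Nat.card_eq_fintype_card] at h1
    exact absurd h1 (by decide)
  · rintro ⟨_, x, rfl⟩ ⟨_, y, rfl⟩
    apply Subtype.ext
    change E x * E y = E y * E x
    rw [← map_mul, ← map_mul, mul_comm]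
  · rintro _ ⟨x, rfl⟩
    obtain ⟨a, b, c⟩ := x
    rw [← map_pow, pow_two, Prod.mk_mul_mk, Prod.mk_mul_mk, sq_V, sq_V, sq_V]
    exact map_one E

theorem rank_mono {G : Type*} [Group G] {k l : ℕ} (hkl : k ≤ l) (h : PRankLE 2 k G) : PRankLE 2 l G :=
  fun A hA hp => (h A hA hp).trans (Nat.pow_le_pow_right (by norm_num) hkl)

instance simple : IsSimpleGroup ↥(alternatingGroup (Fin 12)) :=
  alternatingGroup.isSimpleGroup (by rw [Nat.card_fin]; norm_num)

/-! ### the order -/

/-- the order -/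
def NA : ℕ := 239500800

/-- its factorization -/
def lA : List (ℕ × ℕ) := [(2, 9), (3, 5), (5, 2), (7, 1), (11, 1)]

theorem hv : valid lA NA = true := by decide +kernel

theorem card_alt : Nat.card ↥(alternatingGroup (Fin 12)) = NA := by
  have h := alt_card (by norm_num) (MulEquiv.refl ↥(alternatingGroup (Fin 12)))
  simp only [Nat.factorial, Nat.succ_eq_add_one] at h
  unfold NA
  omega

theorem psl {F : Type} [Field F] [Fintype F] {n : ℕ} (hn : 2 ≤ n) (hn2 : n = 2 → 4 ≤ Fintype.card F) :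
    Nat.card (Matrix.ProjectiveSpecialLinearGroup (Fin n) F) ≠ NA := by
  intro h
  obtain ⟨h1, h2⟩ := psl_mem hv hn hn2 (by rw [h])
  have h3 : ∀ x ∈ cand lA NA fPSL, ordN (.psl x.1 x.2) ≠ NA := by decide +kernel
  exact h3 _ h1 (h2.symm.trans h)

theorem psp {F : Type} [Field F] [Fintype F] {m : ℕ} (hm : 2 ≤ m) (hm2 : m = 2 → 3 ≤ Fintype.card F) :
    Nat.card (PSp m F) ≠ NA := by
  intro h
  obtain ⟨h1, h2⟩ := psp_mem hv hm hm2 (by rw [h])
  have h3 : ∀ x ∈ cand lA NA fPSp, ordN (.psp x.1 x.2) ≠ NA := by decide +kernel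
  exact h3 _ h1 (h2.symm.trans h)

theorem psu {F : Type} [Field F] [Fintype F] {n q : ℕ} (hF : Fintype.card F = q ^ 2) (hn : 3 ≤ n)
    (hn2 : ¬ (n = 3 ∧ q = 2)) : Nat.card (PSU n F q) ≠ NA := by
  intro h
  obtain ⟨h1, h2⟩ := psu_mem hv hF hn hn2 (by rw [h])
  have h3 : ∀ x ∈ cand lA NA fPSU, ordN (.psu x.1 x.2) ≠ NA := by decide +kernel
  exact h3 _ h1 (h2.symm.trans h)

theorem sz (T : OrderTable.{u}) {F : Type} [Field F] [Fintype F] {m : ℕ} (hm : 1 ≤ m)
    (hF : Fintype.card F = 2 ^ (2 * m + 1)) : Nat.card ↥(Lie.Sz F (2 ^ (m + 1))) ≠ NA := by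
  intro h
  obtain ⟨h1, h2⟩ : (0, 2 ^ (2 * m + 1)) ∈ cand lA NA fSz ∧
      Nat.card ↥(Lie.Sz F (2 ^ (m + 1))) = fSz.num 0 (2 ^ (2 * m + 1)) / fSz.den 0 (2 ^ (2 * m + 1)) :=
    one_mem (a := 2) (f := fun q => (q - 1) * (q ^ 2 + 1)) (den := fun _ => 1)
      (ok := fun q => Nat.blt 2 q && Nat.beq (q % 2) 0 && Nat.beq (q % 3) 2) hv (by norm_num)
      (Nat.prime_two.isPrimePow.pow (by omega)) (ok_two hm)
      (by rw [T.sz F m hm hF]; ring) (Nat.coprime_one_left _) (by rw [h])
  have h3 : ∀ x ∈ cand lA NA fSz, fSz.num 0 x.2 / fSz.den 0 x.2 ≠ NA := by decide +kernel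
  exact h3 _ h1 (h2.symm.trans h)

theorem ree (T : OrderTable.{u}) {F : Type} [Field F] [Fintype F] {m : ℕ} (hm : 1 ≤ m)
    (hF : Fintype.card F = 3 ^ (2 * m + 1)) : Nat.card ↥(Lie.twistedG2 F (3 ^ m)) ≠ NA := by
  intro h
  obtain ⟨h1, h2⟩ : (0, 3 ^ (2 * m + 1)) ∈ cand lA NA fRee ∧
      Nat.card ↥(Lie.twistedG2 F (3 ^ m)) = fRee.num 0 (3 ^ (2 * m + 1)) / fRee.den 0 (3 ^ (2 * m + 1)) :=
    one_mem (a := 3) (f := fun q => (q - 1) * (q ^ 3 + 1)) (den := fun _ => 1)
      (ok := fun q => Nat.blt 3 q && Nat.beq (q % 3) 0 && Nat.beq (q % 4) 3) hv (by norm_num)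
      (Nat.prime_three.isPrimePow.pow (by omega)) (ok_three hm)
      (by rw [T.ree F m hm hF]; ring) (Nat.coprime_one_left _) (by rw [h])
  have h3 : ∀ x ∈ cand lA NA fRee, fRee.num 0 x.2 / fRee.den 0 x.2 ≠ NA := by decide +kernel
  exact h3 _ h1 (h2.symm.trans h)

theorem not_comm : ¬ IsMulCommutative ↥(alternatingGroup (Fin 12)) := by
  intro h
  let _ : CommGroup ↥(alternatingGroup (Fin 12)) :=
    { (inferInstance : Group ↥(alternatingGroup (Fin 12))) with mul_comm := h.is_comm.comm }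
  have h2 : (Nat.card ↥(alternatingGroup (Fin 12))).Prime := IsSimpleGroup.prime_card
  rw [card_alt] at h2
  have h3 := (Nat.prime_dvd_prime_iff_eq Nat.prime_two h2).1 (Nat.dvd_of_mod_eq_zero (by decide))
  exact absurd h3 (by decide)

end Cfsg.Agent.H285.AltTwelve
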